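import Cfsg.Agent.Lib.Helper35.JR.Defs
import Cfsg.Agent.Lib.Helper43.AutPSL2.Basic
import Cfsg.Agent.Lib.Helper1.Basic

/-!
# JR (S3206, helper35): package [SYL4]

If the Sylow 2-subgroups of `PSL₂(F)` are abelian, each of them is a conjugate of the four-group
`V₀ = {1, A, B, AB}`.  `V₀` is the centralizer of `{A, B}` (from [V0]), a subgroup of order 4; a
Sylow 2-subgroup containing it is abelian, hence inside the centralizer.
-/

set_option autoImplicit false

namespace Cfsg.Agent.Lib.Helper1.JR

open Cfsg Cfsg.Agent.Lib.Helper35.JR Matrix Pointwise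

universe u

section

variable {F : Type u} [Field F]

local notation "PSL2" => Matrix.ProjectiveSpecialLinearGroup (Fin 2) F
local notation "SL2" => Matrix.SpecialLinearGroup (Fin 2) F
local notation "M2" => Matrix (Fin 2) (Fin 2) F

/-- Equality in `PSL₂`. -/
theorem mk_eq_iff (X Y : SL2) :
    ((QuotientGroup.mk X : PSL2) = QuotientGroup.mk Y) ↔
      (X : M2) = (Y : M2) ∨ (X : M2) = -(Y : M2) :=
  Cfsg.Agent.Lib.Helper43.AutPSL2.pm_eq_iff X Y

theorem coe_elA : ((elA F : SL2) : M2) = !![0, -1; 1, 0] := rfl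

theorem coe_elB (a b : F) (h : a ^ 2 + b ^ 2 = -1) : ((elB a b h : SL2) : M2) = !![a, b; b, -a] :=
  rfl

theorem matA_sq : (!![0, -1; 1, 0] : M2) * !![0, -1; 1, 0] = -1 := by
  ext i j
  fin_cases i <;> fin_cases j <;> simp [Matrix.mul_apply, Fin.sum_univ_two]

theorem matB_sq (a b : F) (h : a ^ 2 + b ^ 2 = -1) :
    (!![a, b; b, -a] : M2) * !![a, b; b, -a] = -1 := by
  ext i j
  fin_cases i <;> fin_cases j <;> simp [Matrix.mul_apply, Fin.sum_univ_two]
  · linear_combination h
  · ring
  · ring
  · linear_combination h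

theorem matAB (a b : F) : (!![0, -1; 1, 0] : M2) * !![a, b; b, -a] = !![-b, a; a, b] := by
  ext i j
  fin_cases i <;> fin_cases j <;> simp [Matrix.mul_apply, Fin.sum_univ_two]

theorem matBA (a b : F) : (!![a, b; b, -a] : M2) * !![0, -1; 1, 0] = -!![-b, a; a, b] := by
  ext i j
  fin_cases i <;> fin_cases j <;> simp [Matrix.mul_apply, Fin.sum_univ_two]

theorem pA_sq : (pA F * pA F : PSL2) = 1 := by
  show (QuotientGroup.mk (elA F * elA F) : PSL2) = QuotientGroup.mk 1
  rw [mk_eq_iff]
  right
  rw [Matrix.SpecialLinearGroup.coe_mul, coe_elA, matA_sq]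
  rfl

theorem pB_sq (a b : F) (h : a ^ 2 + b ^ 2 = -1) : (pB a b h * pB a b h : PSL2) = 1 := by
  show (QuotientGroup.mk (elB a b h * elB a b h) : PSL2) = QuotientGroup.mk 1
  rw [mk_eq_iff]
  right
  rw [Matrix.SpecialLinearGroup.coe_mul, coe_elB, matB_sq a b h]
  rfl

theorem pA_pB_comm (a b : F) (h : a ^ 2 + b ^ 2 = -1) :
    (pA F * pB a b h : PSL2) = pB a b h * pA F := by
  show (QuotientGroup.mk (elA F * elB a b h) : PSL2) = QuotientGroup.mk (elB a b h * elA F)
  rw [mk_eq_iff]
  right
  rw [Matrix.SpecialLinearGroup.coe_mul, Matrix.SpecialLinearGroup.coe_mul, coe_elA, coe_elB,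
    matAB, matBA, neg_neg]

theorem pA_ne_one : (pA F : PSL2) ≠ 1 := by
  intro hc
  have hc' : (QuotientGroup.mk (elA F) : PSL2) = QuotientGroup.mk 1 := hc
  rw [mk_eq_iff, coe_elA] at hc'
  rcases hc' with h1 | h1
  · have := congrFun (congrFun h1 0) 0
    simp at this
  · have := congrFun (congrFun h1 0) 0
    simp at this

theorem pB_ne_one (h2 : (2 : F) ≠ 0) (a b : F) (h : a ^ 2 + b ^ 2 = -1) :
    (pB a b h : PSL2) ≠ 1 := by
  intro hc
  have hc' : (QuotientGroup.mk (elB a b h) : PSL2) = QuotientGroup.mk 1 := hc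
  rw [mk_eq_iff, coe_elB] at hc'
  rcases hc' with h1 | h1
  · have e0 := congrFun (congrFun h1 0) 0
    have e1 := congrFun (congrFun h1 1) 1
    simp at e0 e1
    apply h2
    linear_combination (-1 : F) * e0 - e1
  · have e0 := congrFun (congrFun h1 0) 0
    have e1 := congrFun (congrFun h1 1) 1
    simp at e0 e1
    apply h2
    linear_combination e0 - e1

theorem pA_ne_pB (h2 : (2 : F) ≠ 0) (a b : F) (h : a ^ 2 + b ^ 2 = -1) :
    (pA F : PSL2) ≠ pB a b h := by
  intro hc
  have hc' : (QuotientGroup.mk (elA F) : PSL2) = QuotientGroup.mk (elB a b h) := hc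
  rw [mk_eq_iff, coe_elA, coe_elB] at hc'
  rcases hc' with h1 | h1
  · have e0 := congrFun (congrFun h1 0) 1
    have e1 := congrFun (congrFun h1 1) 0
    simp at e0 e1
    apply h2
    linear_combination e1 - e0
  · have e0 := congrFun (congrFun h1 0) 1
    have e1 := congrFun (congrFun h1 1) 0
    simp at e0 e1
    apply h2
    linear_combination e0 + e1

theorem pApB_ne_one (h2 : (2 : F) ≠ 0) (a b : F) (h : a ^ 2 + b ^ 2 = -1) :
    (pA F * pB a b h : PSL2) ≠ 1 := by
  intro hc
  have hc' : (QuotientGroup.mk (elA F * elB a b h) : PSL2) = QuotientGroup.mk 1 := hc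
  rw [mk_eq_iff, Matrix.SpecialLinearGroup.coe_mul, coe_elA, coe_elB, matAB] at hc'
  have ha : a = 0 := by
    rcases hc' with h1 | h1
    · have := congrFun (congrFun h1 0) 1
      simpa using this
    · have := congrFun (congrFun h1 0) 1
      simpa using this
  have hb : (2 : F) * b = 0 := by
    rcases hc' with h1 | h1
    · have e0 := congrFun (congrFun h1 0) 0
      have e1 := congrFun (congrFun h1 1) 1
      simp at e0 e1
      linear_combination e1 - e0
    · have e0 := congrFun (congrFun h1 0) 0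
      have e1 := congrFun (congrFun h1 1) 1
      simp at e0 e1
      linear_combination e0 + e1
  have hb0 : b = 0 := by
    rcases mul_eq_zero.mp hb with h3 | h3
    · exact absurd h3 h2
    · exact h3
  rw [ha, hb0] at h
  have : (1 : F) = 0 := by linear_combination h
  exact one_ne_zero this

/-- The centralizer of `{A, B}` in `PSL₂(F)` is inside `V₀`. -/
theorem mem_V0_of_comm (hV0 : PkgV0.{u}) (h2 : (2 : F) ≠ 0) (a b : F)
    (h : a ^ 2 + b ^ 2 = -1) (g : PSL2) (hgA : g * pA F = pA F * g)
    (hgB : g * pB a b h = pB a b h * g) : g ∈ V0 a b h := by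
  obtain ⟨M, rfl⟩ := QuotientGroup.mk_surjective g
  have hA : (QuotientGroup.mk (M * elA F) : PSL2) = QuotientGroup.mk (elA F * M) := hgA
  have hB : (QuotientGroup.mk (M * elB a b h) : PSL2) = QuotientGroup.mk (elB a b h * M) := hgB
  rw [mk_eq_iff, Matrix.SpecialLinearGroup.coe_mul, Matrix.SpecialLinearGroup.coe_mul,
    coe_elA] at hA
  rw [mk_eq_iff, Matrix.SpecialLinearGroup.coe_mul, Matrix.SpecialLinearGroup.coe_mul,
    coe_elB] at hB
  obtain ⟨c, hc⟩ := hV0 F h2 a b h (M : M2) hA hB
  have hdet : (M : M2).det = 1 := M.2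
  have hdetA : (!![0, -1; 1, 0] : M2).det = 1 := by simp [Matrix.det_fin_two]
  have hdetB : (!![a, b; b, -a] : M2).det = 1 := by
    rw [Matrix.det_fin_two_of]; linear_combination (-1 : F) * h
  -- in each case `c ^ 2 = 1`
  have key : ∀ X : SL2, (M : M2) = c • (X : M2) →
      (QuotientGroup.mk M : PSL2) = QuotientGroup.mk X := by
    intro X hX
    have hc2 : c ^ 2 = 1 := by
      have := hdet
      rw [hX, Matrix.det_smul, Fintype.card_fin, X.2, mul_one] at this
      exact this
    have hc1 : c = 1 ∨ c = -1 := by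
      have : (c - 1) * (c + 1) = 0 := by linear_combination hc2
      rcases mul_eq_zero.mp this with h3 | h3
      · left; linear_combination h3
      · right; linear_combination h3
    rw [mk_eq_iff]
    rcases hc1 with rfl | rfl
    · left; rw [hX, one_smul]
    · right; rw [hX, neg_one_smul]
  unfold V0
  rcases hc with hc | hc | hc | hc
  · left
    exact key 1 (by rw [hc]; rfl)
  · right; left
    exact key (elA F) (by rw [hc, coe_elA])
  · right; right; left
    exact key (elB a b h) (by rw [hc, coe_elB])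
  · right; right; right
    exact key (elA F * elB a b h) (by
      rw [hc, Matrix.SpecialLinearGroup.coe_mul, coe_elA, coe_elB])

/-- `V₀` is the centralizer of `{A, B}`. -/
theorem centralizer_eq_V0 (hV0 : PkgV0.{u}) (h2 : (2 : F) ≠ 0) (a b : F)
    (h : a ^ 2 + b ^ 2 = -1) :
    ((Subgroup.centralizer ({pA F, pB a b h} : Set PSL2) : Subgroup PSL2) : Set PSL2) =
      V0 a b h := by
  ext g
  constructor
  · intro hg
    have hg' := Subgroup.mem_centralizer_iff.mp hg
    exact mem_V0_of_comm hV0 h2 a b h g (hg' _ (by simp)).symm (hg' _ (by simp)).symm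
  · intro hg
    have hAA := pA_sq (F := F)
    have hBB := pB_sq a b h
    have hAB := pA_pB_comm a b h
    apply Subgroup.mem_centralizer_iff.mpr
    unfold V0 at hg
    rcases hg with rfl | rfl | rfl | rfl
    · intro x _; rw [mul_one, one_mul]
    · rintro x (rfl | rfl)
      · rfl
      · exact hAB.symm
    · rintro x (rfl | rfl)
      · exact hAB
      · rfl
    · rintro x (rfl | rfl)
      · calc pA F * (pA F * pB a b h) = pA F * (pB a b h * pA F) := by rw [hAB]
          _ = pA F * pB a b h * pA F := by rw [mul_assoc]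
      · calc pB a b h * (pA F * pB a b h) = pB a b h * pA F * pB a b h := by rw [mul_assoc]
          _ = pA F * pB a b h * pB a b h := by rw [hAB]

theorem ncard_V0 (h2 : (2 : F) ≠ 0) (a b : F) (h : a ^ 2 + b ^ 2 = -1) [Finite PSL2] :
    (V0 a b h : Set PSL2).ncard = 4 := by
  have n1 := pA_ne_one (F := F)
  have n2 := pB_ne_one h2 a b h
  have n3 := pA_ne_pB h2 a b h
  have n4 := pApB_ne_one h2 a b h
  have n5 : pA F * pB a b h ≠ pA F := by
    intro hc
    apply n2
    have : pA F * pB a b h = pA F * 1 := by rw [hc, mul_one]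
    exact mul_left_cancel this
  have n6 : pA F * pB a b h ≠ pB a b h := by
    intro hc
    apply n1
    have : pA F * pB a b h = 1 * pB a b h := by rw [hc, one_mul]
    exact mul_right_cancel this
  unfold V0
  rw [Set.ncard_insert_of_notMem (by
      simp only [Set.mem_insert_iff, Set.mem_singleton_iff, not_or]
      exact ⟨fun e => n1 e.symm, fun e => n2 e.symm, fun e => n4 e.symm⟩),
    Set.ncard_insert_of_notMem (by
      simp only [Set.mem_insert_iff, Set.mem_singleton_iff, not_or]
      exact ⟨n3, fun e => n5 e.symm⟩),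
    Set.ncard_insert_of_notMem (by
      simp only [Set.mem_singleton_iff]
      exact fun e => n6 e.symm),
    Set.ncard_singleton]

end

/-- **[SYL4]** -/
theorem pkgSyl4 (hV0 : PkgV0.{u}) : PkgSyl4.{u} := by
  intro F _ _ h2 a b h hab P
  classical
  have hfin : Finite (Matrix.ProjectiveSpecialLinearGroup (Fin 2) F) := inferInstance
  set C : Subgroup (Matrix.ProjectiveSpecialLinearGroup (Fin 2) F) :=
    Subgroup.centralizer ({pA F, pB a b h} : Set (Matrix.ProjectiveSpecialLinearGroup (Fin 2) F))
    with hC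
  have hCV : (C : Set (Matrix.ProjectiveSpecialLinearGroup (Fin 2) F)) = V0 a b h :=
    centralizer_eq_V0 hV0 h2 a b h
  have hcard : Nat.card C = 4 := by
    rw [← SetLike.coe_sort_coe, Nat.card_coe_set_eq, hCV]
    exact ncard_V0 h2 a b h
  have hCp : IsPGroup 2 C := IsPGroup.of_card (n := 2) (by rw [hcard]; norm_num)
  obtain ⟨P0, hP0⟩ := hCp.exists_le_sylow
  have hAC : pA F ∈ C := by
    have : pA F ∈ (C : Set _) := by rw [hCV]; unfold V0; simp
    exact this
  have hBC : pB a b h ∈ C := by
    have : pB a b h ∈ (C : Set _) := by rw [hCV]; unfold V0; simp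
    exact this
  have hP0C : ∀ x, x ∈ (P0 : Subgroup (Matrix.ProjectiveSpecialLinearGroup (Fin 2) F)) ↔
      x ∈ V0 a b h := by
    intro x
    constructor
    · intro hx
      have h1 := hab P0 x hx (pA F) (hP0 hAC)
      have h3 := hab P0 x hx (pB a b h) (hP0 hBC)
      exact mem_V0_of_comm hV0 h2 a b h x h1 h3
    · intro hx
      have : x ∈ (C : Set _) := by rw [hCV]; exact hx
      exact hP0 this
  obtain ⟨g, hg⟩ := MulAction.exists_smul_eq (Matrix.ProjectiveSpecialLinearGroup (Fin 2) F) P0 P
  have hconj : MulAut.conj g • (P0 : Subgroup (Matrix.ProjectiveSpecialLinearGroup (Fin 2) F)) =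
      (P : Subgroup (Matrix.ProjectiveSpecialLinearGroup (Fin 2) F)) := by
    have := congrArg
      (fun Q : Sylow 2 (Matrix.ProjectiveSpecialLinearGroup (Fin 2) F) =>
        (Q : Subgroup (Matrix.ProjectiveSpecialLinearGroup (Fin 2) F))) hg
    simpa [Sylow.smul_def, Sylow.pointwise_smul_def] using this
  have hmem : ∀ x, x ∈ (P : Subgroup (Matrix.ProjectiveSpecialLinearGroup (Fin 2) F)) ↔
      g⁻¹ * x * g ∈ V0 a b h := by
    intro x
    rw [← hconj, Cfsg.Agent.Lib.Helper1.mem_conj_smul, hP0C]
  have hexp : ∀ v ∈ V0 a b h, v ^ 2 = 1 := by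
    intro v hv
    have hAA := pA_sq (F := F)
    have hBB := pB_sq a b h
    have hAB := pA_pB_comm a b h
    unfold V0 at hv
    rcases hv with rfl | rfl | rfl | rfl
    · exact one_pow 2
    · rw [pow_two]; exact hAA
    · rw [pow_two]; exact hBB
    · rw [pow_two]
      calc pA F * pB a b h * (pA F * pB a b h) = pA F * (pB a b h * pA F) * pB a b h := by group
        _ = pA F * (pA F * pB a b h) * pB a b h := by rw [← hAB]
        _ = (pA F * pA F) * (pB a b h * pB a b h) := by group
        _ = 1 := by rw [hAA, hBB, mul_one]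
  refine ⟨?_, ?_, g, hmem⟩
  · -- card P = card P0 = card C
    have e1 : Nat.card (P : Subgroup (Matrix.ProjectiveSpecialLinearGroup (Fin 2) F)) =
        Nat.card (P0 : Subgroup (Matrix.ProjectiveSpecialLinearGroup (Fin 2) F)) := by
      rw [Sylow.card_eq_multiplicity, Sylow.card_eq_multiplicity]
    rw [e1]
    have e2 : (P0 : Subgroup (Matrix.ProjectiveSpecialLinearGroup (Fin 2) F)) = C := by
      ext x
      rw [hP0C]
      constructor
      · intro hx
        have : x ∈ (C : Set _) := by rw [hCV]; exact hx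
        exact this
      · intro hx
        have : x ∈ (C : Set _) := hx
        rw [hCV] at this
        exact this
    rw [e2]
    exact hcard
  · intro x hx
    have h1 := hexp _ ((hmem x).mp hx)
    have h3 : g⁻¹ * x ^ 2 * g = 1 := by
      rw [← h1, pow_two, pow_two]; group
    have h4 : x ^ 2 = g * 1 * g⁻¹ := by
      rw [← h3]; group
    rw [h4]; group

end Cfsg.Agent.Lib.Helper1.JR
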